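import Groth.Agent.Sga4B.DualAsm
import Groth.Agent.Sga4B.ZModInj
import Groth.Agent.Sga4h.BidGlobPkg
import Groth.Agent.Sga2lef.H252.ModOf

/-!
# Vanishing of `H^i(P, j_! F)` from vanishing of `Ext^(2N-i)(F, Λ)` (Poincaré duality)
-/

set_option autoImplicit false
universe w v u t

open CategoryTheory CategoryTheory.Limits AlgebraicGeometry Opposite CategoryTheory.Abelian

namespace Groth.Agent.Sga2lef.H252.CompDual

open Groth.Agent.Etrest.ModAb Groth.Agent.Sga4B Groth.Agent.Sga4B.LMLS Groth.Agent.Sga4B.DualAsm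
open Groth.Agent.Sga4h.BidGlobPkg

/-- A group killed by `n` is zero if all homomorphisms to `ℤ/n` (in any universe) are zero. -/
theorem subsingleton_of_dual {n : ℕ} (hn : 0 < n) {A : Type t} [AddCommGroup A] (hA : ∀ x : A, n • x = 0)
    (h : ∀ f : A →+ ULift.{v} (ZMod n), f = 0) : Subsingleton A := by
  refine ⟨fun x y => ?_⟩
  rw [← sub_eq_zero]
  refine ZModInj.eq_zero_of_forall n hn hA _ (fun b => ?_)
  have h1 := DFunLike.congr_fun (h (AddEquiv.ulift.symm.toAddMonoidHom.comp b)) (x - y)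
  exact congrArg ULift.down h1

variable {X P : Scheme.{u}} (j : X ⟶ P) [Etale j] {n : ℕ} {N : ℕ} {K : EtModW.Mod (Lam.{u} n) X}
  {tr : Ext.{u + 1} (Z P) ((Psi j n).obj K) N →+ E.{u} n}

/-- Vanishing of `H^m(P, j_! F)` from the vanishing of `Ext^q(F, K)`, `m + q = N`. -/
theorem subsingleton_H (hn : 0 < n) {q m : ℕ} (h : m + q = N) (F : EtModW.Mod (Lam.{u} n) X)
    (hφ : Function.Surjective (DualFormal.phi (Psi j n) (Z P) tr F h))
    (hE : Subsingleton (Ext.{u + 1} F K q)) :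
    Subsingleton (EtCoh.H P ((EtShriek.extZero j).obj ((ab (Lam.{u} n) X).obj F)) m) := by
  refine subsingleton_of_dual.{u + 1} hn (A := Ext.{u + 1} (Z P) ((Psi j n).obj F) m)
    (fun x => nsmul_ext j F m x) (fun f => ?_)
  obtain ⟨e, rfl⟩ := hφ f
  rw [Subsingleton.elim e 0, map_zero]

/-- The same with `K` replaced by the constant sheaf, for a sheaf killed by `n`. -/
theorem subsingleton_H_const (hn : 0 < n) {q m : ℕ} (h : m + q = N) (F : EtModW.Mod (Lam.{u} n) X)
    (hφ : Function.Surjective (DualFormal.phi (Psi j n) (Z P) tr F h))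
    (hK : Nonempty ((ab (Lam.{u} n) X).obj K ≅ EtCoh.const X (ZMod n)))
    (hE : Subsingleton (Ext.{u + 1} F (cM (Lam.{u} n) X) q))
    (G : EtCoh.Ab X) (e : (ab (Lam.{u} n) X).obj F ≅ G) :
    Subsingleton (EtCoh.H P ((EtShriek.extZero j).obj G) m) := by
  obtain ⟨eK⟩ := nonempty_iso_cM hK
  have h1 : Subsingleton (Ext.{u + 1} F K q) := by
    refine ⟨fun a b => ?_⟩
    have h2 : ∀ a : Ext.{u + 1} F K q, a = 0 := by
      intro a
      have h3 : a = (a.comp (Ext.mk₀ eK.inv) (add_zero q)).comp (Ext.mk₀ eK.hom) (add_zero q) := by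
        rw [Ext.comp_assoc_of_third_deg_zero, Ext.mk₀_comp_mk₀, Iso.inv_hom_id, Ext.comp_mk₀_id]
      rw [h3, Subsingleton.elim (a.comp (Ext.mk₀ eK.inv) (add_zero q)) 0, Ext.zero_comp]
    rw [h2 a, h2 b]
  have h4 := subsingleton_H j hn h F hφ h1
  exact (HTools.HCongr ((EtShriek.extZero j).mapIso e) m).symm.toEquiv.injective.subsingleton

end Groth.Agent.Sga2lef.H252.CompDual
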