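import Groth.Agent.Sga4B.DualFinal
import Groth.Agent.Sga4B.PkgB
import Groth.Agent.Sga2lef.H252.CompDual

/-!
# Vanishing of `H^i(P, j_! F)` from vanishing of `Ext^q(F, Λ)`, `k` algebraically closed
-/

set_option autoImplicit false
universe u

open CategoryTheory CategoryTheory.Limits AlgebraicGeometry Opposite CategoryTheory.Abelian

namespace Groth.Agent.Sga2lef.H252.CompDualFinal

open Groth.Agent.Etrest.ModAb Groth.Agent.Sga4B Groth.Agent.Sga4B.LMLS Groth.Agent.Sga4B.DualAsm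
open Groth.Agent.Sga4h.BidGlobPkg

variable {k : Type u} [Field k] [IsAlgClosed k] {X P : Scheme.{u}}
  (a : P ⟶ Spec (CommRingCat.of k)) [IsProper a] (j : X ⟶ P) [IsOpenImmersion j]
  (N : ℕ) [SmoothOfRelativeDimension N (j ≫ a)] (n : ℕ) (hn : (n : k) ≠ 0)

include a hn in
/-- One degree. -/
theorem subsingleton_H (F : EtModW.Mod (Lam.{u} n) X) {q i : ℕ} (h : i + q = 2 * N)
    (hE : Subsingleton (Ext.{u + 1} F (cM (Lam.{u} n) X) q))
    (G : EtCoh.Ab X) (e : (ab (Lam.{u} n) X).obj F ≅ G) :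
    Subsingleton (EtCoh.H P ((EtShriek.extZero j).obj G) i) := by
  have hn0 : 0 < n := Nat.pos_of_ne_zero fun h => hn (by rw [h, Nat.cast_zero])
  obtain ⟨K, tr, -, h2, h3⟩ := DualFinal.duality a j N n hn0 (PkgB.pkg k n hn N)
  exact CompDual.subsingleton_H_const (K := K) (tr := tr) j hn0 h F (h2 q i h F).2 h3 hE G e

include a hn in
/-- **Compactly supported cohomology vanishes in degrees `< c` as soon as `Ext^q(F, Λ) = 0` for `q > 2N - c`.** -/
theorem subsingleton_H_of_lt (F : EtModW.Mod (Lam.{u} n) X) (c : ℕ)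
    (hE : ∀ q : ℕ, 2 * N < c + q → Subsingleton (Ext.{u + 1} F (cM (Lam.{u} n) X) q))
    (G : EtCoh.Ab X) (e : (ab (Lam.{u} n) X).obj F ≅ G) (i : ℕ) (hi : i < c) :
    Subsingleton (EtCoh.H P ((EtShriek.extZero j).obj G) i) := by
  have hn0 : 0 < n := Nat.pos_of_ne_zero fun h => hn (by rw [h, Nat.cast_zero])
  rcases Nat.lt_or_ge (2 * N) i with h | h
  · have h1 := DualCdX.subsingleton_H a j N ((ab (Lam.{u} n) X).obj F)
      (JFComp.isTorsion_of_killedBy hn0 (killedBy_ab n F)) i h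
    exact (HTools.HCongr ((EtShriek.extZero j).mapIso e) i).symm.toEquiv.injective.subsingleton
  · exact subsingleton_H a j N n hn F (q := 2 * N - i) (i := i) (by omega) (hE _ (by omega)) G e

end Groth.Agent.Sga2lef.H252.CompDualFinal
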